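import Cfsg.Agent.H150.QF.Rt
import Cfsg.Agent.S0242

/-!
# Elements of order divisible by five in the parabolic subgroups `{0, 1, 3}`, `{0, 3}` of `²E₆(2)` (S2491, row F4, E5; helper150)

`cr_j3` : `g ∈ P_3`, `5 ∣ o(g)`, `1 ≠ z ∈ V_3`, `g z = z g` : `z` is a root element, so `CR g`;
`in_or_cr` : `g ∈ P_{0,3}`, `1 ≠ z ∈ V_{0,3}`, `g z = z g`, `5 ∣ o(g)` : `In φ j1 g ∨ CR g`.
-/

set_option autoImplicit false
set_option linter.unusedSectionVars false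
set_option linter.style.haveILetI false

namespace Cfsg.Agent.H150.QF

open CoxeterSystem Cfsg.Agent.ChevalleyStructure.CoxeterGeom Cfsg.Agent.Tits.Roots Cfsg.Agent.Tits.Core
  Cfsg.Agent.Nodes Cfsg.Agent.Nodes.Reps Cfsg.Agent.Nodes.BNOf Cfsg.Agent.Nodes.RGDLib Cfsg.Agent.Nodes.Bruhat
  Cfsg.Agent.Nodes.OppDec Cfsg.Agent.Nodes.LeviDec Cfsg.Agent.Nodes.StabComb Cfsg.Agent.Nodes.Unique
open Cfsg.Lie Subgroup
open Cfsg.Agent.H231.QF
open Cfsg.Agent.KFacts.TwESix.Comb (bf rts mem_rts bf_rep norm exists_rep_long exists_rep_short)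
open Cfsg.Agent.Nodes.RGDFoldSL (Fx mem_Fx wS)
open Cfsg.Agent.Nodes.RGDTwNode.E6 (rest)
open Cfsg.Agent.ChevalleyStructure.SL2Hom (up lo)
open Cfsg.Agent.LThreeTwE6.ParWords Cfsg.Agent.LThreeTwE6.ParBorel

universe u

theorem card_SL2 {F : Type u} [Field F] [Finite F] : Nat.card (Matrix.SpecialLinearGroup (Fin 2) F) =
    Nat.card F * (Nat.card F ^ 2 - 1) := by
  have : Fintype F := Fintype.ofFinite F
  have h1 := Cfsg.Agent.S0242.result (F := F) rfl 2 (by norm_num)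
  have hq : 2 ≤ Fintype.card F := Fintype.one_lt_card
  rw [Fin.prod_univ_two] at h1
  have h3 : Fintype.card F ^ 2 - Fintype.card F ^ 1 = (Fintype.card F - 1) * Fintype.card F := by
    rw [Nat.sub_mul, one_mul, pow_one, pow_two]
  simp only [Fin.val_zero, Fin.val_one, pow_zero] at h1
  rw [h3] at h1
  have h4 : (Fintype.card F - 1) * Nat.card (Matrix.SpecialLinearGroup (Fin 2) F) =
      (Fintype.card F - 1) * (Fintype.card F * (Fintype.card F ^ 2 - 1)) := by rw [h1]; ring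
  rw [Nat.card_eq_fintype_card (α := F)]
  exact Nat.eq_of_mul_eq_mul_left (by omega) h4

theorem finite_KK {F : Type u} [Field F] [Fintype F] : Finite (KK F) := by
  have : Finite (Matrix chevE6.Idx chevE6.Idx F) := inferInstance
  have : Finite (GL chevE6.Idx F) := inferInstance
  infer_instance

section

variable {F : Type u} [Field F] [Fintype F] {φ : F →+* F} (hF : Fintype.card F = 4) (hφ : ∀ t, φ t = t ^ 2)

include hF hφ

theorem card_P3 : Nat.card (P φ j3) = 105 * (3 * 2 ^ 36) := by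
  have h0 : ∀ i : Fin 4, i.val ∈ [0, 1, 3] ↔ i ∈ (j3 : Set (Fin 4)) := by
    intro i
    change i.val ∈ [0, 1, 3] ↔ i ≠ 2
    revert i
    decide
  exact card_PJ (Cfsg.Agent.H297.QF.Su.four hF hφ) (L := gL) (fun l hl i hi => (h0 i).1 (mem_g l hl i hi))
      (fun l hl => exists_g fun i hi => (h0 i).2 (hl i hi)) keys_g sum_g

/-- an element of order five in the kernel of the homomorphism of the node `3` -/
theorem sq_ne {s : Matrix.SpecialLinearGroup (Fin 2) (Fx φ ((rest 3).length + 1))} (h : s ∈ (P3 hF hφ).ker) :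
    s * s = 1 := by
  by_contra hs
  have hk2 : 4 ≤ Nat.card (Fx φ ((rest 3).length + 1)) := by rw [card_F3 hF hφ]
  have hq := Cfsg.Agent.SignalizersComponents.SLQuasisimple.isQuasisimple_two (F := Fx φ ((rest 3).length + 1)) hk2
  rcases Cfsg.Agent.Lib.ComponentSolvable.quasisimple_normal_cases hq (N := (P3 hF hφ).ker) inferInstance with h1 | h1
  · have h2 : (up 1 : Matrix.SpecialLinearGroup (Fin 2) (Fx φ ((rest 3).length + 1))) ∈ (P3 hF hφ).ker := by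
      rw [h1]; exact Subgroup.mem_top _
    exact one_ne_zero (Cfsg.Agent.UGT.U2.FOne.TwESix.P_up_inj hφ (hqq_of hF) 3 h2)
  · have h3 := h1 h
    obtain ⟨t, ht, hts⟩ := Matrix.SpecialLinearGroup.mem_center_iff.1 h3
    apply hs
    apply Subtype.ext
    rw [Matrix.SpecialLinearGroup.coe_mul, ← hts, ← map_mul]
    have : t * t = 1 := by simpa [pow_two] using ht
    rw [this, map_one]
    rfl

theorem five_dvd : 5 ∣ Nat.card (P3 hF hφ).range := by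
  have hfin : Finite (Fx φ ((rest 3).length + 1)) := inferInstance
  have h5 : Nat.Prime 5 := by norm_num
  have : Fact (Nat.Prime 5) := ⟨h5⟩
  have h1 : Nat.card (Matrix.SpecialLinearGroup (Fin 2) (Fx φ ((rest 3).length + 1))) = 60 := by
    rw [card_SL2, card_F3 hF hφ]
    norm_num
  have h2 := Subgroup.card_eq_card_quotient_mul_card_subgroup (P3 hF hφ).ker
  rw [Nat.card_congr (QuotientGroup.quotientKerEquivRange (P3 hF hφ)).toEquiv, h1] at h2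
  have h3 : 5 ∣ Nat.card (P3 hF hφ).range * Nat.card (P3 hF hφ).ker := by rw [← h2]; norm_num
  rcases h5.dvd_mul.1 h3 with h | h
  · exact h
  · exfalso
    obtain ⟨⟨s, hs⟩, ho⟩ := exists_prime_orderOf_dvd_card' 5 h
    have h4 := sq_ne hF hφ hs
    have h6 : (⟨s, hs⟩ : (P3 hF hφ).ker) ^ 2 = 1 := by
      apply Subtype.ext
      change s ^ 2 = 1
      rw [pow_two]; exact h4
    have h7 := orderOf_dvd_of_pow_eq_one h6
    rw [ho] at h7
    omega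

theorem range_le_P3 : (P3 hF hφ).range ≤ P φ j3 := by
  rw [Cfsg.Agent.UGT.U2.FOne.TwESix.range_P hφ (hqq_of hF) 3]
  have h : (3 : Fin 4) ∈ (j3 : Set (Fin 4)) := by
    change (3 : Fin 4) ≠ 2
    decide
  refine sup_le ?_ ?_ <;> refine (X_le_LJ (J := j3) ?_).trans LJ_le_PJ
  · exact ⟨isRoot_sr cs _ 3, fun k hk => sr_ne fun h1 => hk (by rw [h1]; exact h)⟩
  · refine ⟨(isRoot_sr cs _ 3).neg, fun k hk => ?_⟩
    rw [Pi.neg_apply, sr_ne fun h1 => hk (by rw [h1]; exact h), neg_zero]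

/-- elements of order five of `P_3` are conjugate into the rank one group of the node `3` -/
theorem exists_conj {d : KK F} (hd : d ∈ P φ j3) (ho : orderOf d = 5) :
    ∃ p ∈ P φ j3, ∃ s, P3 hF hφ s = p⁻¹ * d * p := by
  have := finite_KK (F := F)
  have : Fact (Nat.Prime 5) := ⟨by norm_num⟩
  have h1 : ¬ 5 ∣ (P3 hF hφ).range.relIndex (P φ j3) := by
    intro h
    have h2 := Subgroup.relIndex_mul_relIndex ⊥ (P3 hF hφ).range (P φ j3) bot_le (range_le_P3 hF hφ)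
    rw [Subgroup.relIndex_bot_left, Subgroup.relIndex_bot_left, card_P3 hF hφ] at h2
    obtain ⟨a, ha⟩ := h
    obtain ⟨b, hb⟩ := five_dvd hF hφ
    rw [ha, hb] at h2
    have h3 : 25 ∣ 105 * (3 * 2 ^ 36) := ⟨b * a, by rw [← h2]; ring⟩
    revert h3
    norm_num
  obtain ⟨p, hp, s, hs⟩ := Cfsg.Agent.LThreeTwE6.Par.exists_conj_mem hd ho h1
  exact ⟨p, hp, s, hs⟩

/-- **E5 for `P_3`.** -/
theorem cr_j3 {g z : KK F} (hg : g ∈ P φ j3) (hz : z ∈ V φ j3) (hz1 : z ≠ 1) (hgz : g * z = z * g)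
    (h5 : 5 ∣ orderOf g) : CR g := by
  have := finite_KK (F := F)
  have R := rgdK hF hφ
  have hg0 : orderOf g ≠ 0 := (orderOf_pos g).ne'
  obtain ⟨d, hd⟩ : ∃ d, d = g ^ (orderOf g / 5) := ⟨_, rfl⟩
  have hdo : orderOf d = 5 := by rw [hd]; exact orderOf_pow_orderOf_div hg0 h5
  have hdz : d * z = z * d := by rw [hd]; exact (Commute.pow_left hgz _)
  obtain ⟨p, hp, s, hs⟩ := exists_conj hF hφ (d := d) (by rw [hd]; exact pow_mem hg _) hdo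
  have hz' : p⁻¹ * z * p ∈ V φ j3 := by
    have := (Subgroup.mem_normalizer_iff.1 (PJ_le_normalizer_VJ R j3 (inv_mem hp)) z).1 hz
    rwa [inv_inv] at this
  have h5' : P3 hF hφ s ^ 5 = 1 := by
    rw [hs]
    have e : p⁻¹ * d * p = p⁻¹ * d * p⁻¹⁻¹ := by rw [inv_inv]
    rw [e, conj_pow, ← hdo, pow_orderOf_eq_one, mul_one, mul_inv_cancel]
  have hss : s * s ≠ 1 := by
    intro h
    have h1 : d * d = 1 := by
      have h2 : P3 hF hφ s * P3 hF hφ s = 1 := by rw [← map_mul, h, map_one]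
      rw [hs] at h2
      calc d * d = p * ((p⁻¹ * d * p) * (p⁻¹ * d * p)) * p⁻¹ := by group
        _ = 1 := by rw [h2]; group
    have h3 := orderOf_dvd_of_pow_eq_one (x := d) (n := 2) (by rw [pow_two]; exact h1)
    rw [hdo] at h3
    omega
  have hc : P3 hF hφ s * (p⁻¹ * z * p) = p⁻¹ * z * p * P3 hF hφ s := by
    rw [hs]
    calc p⁻¹ * d * p * (p⁻¹ * z * p) = p⁻¹ * (d * z) * p := by group
      _ = p⁻¹ * (z * d) * p := by rw [hdz]
      _ = _ := by group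
  have h6 := mem_last hF hφ hss h5' hz' hc
  obtain ⟨x, hx⟩ := exists_conj_last hF hφ h6
  refine ⟨z, re_of hF hφ (x := x * p⁻¹) ?_ hz1, hgz⟩
  have e : x * p⁻¹ * z * (x * p⁻¹)⁻¹ = x * (p⁻¹ * z * p) * x⁻¹ := by group
  rw [e]
  exact hx

end

/-! ### The parabolic subgroup of `{0, 3}` -/

/-- the nodes `0`, `3` -/
def j03 : Set (Fin 4) := {k | k = 0 ∨ k = 3}

/-- `{c} ∪ {x | 0 < x 2}` -/
def Tm (c : Fin 4 → ℤ) : Finset (Fin 4 → ℤ) := (prt.filter fun x => x = c ∨ 0 < x 2).toFinset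

theorem mem_Tm {c x : Fin 4 → ℤ} : x ∈ Tm c ↔ x ∈ prt ∧ (x = c ∨ 0 < x 2) := by
  rw [Tm, List.mem_toFinset, List.mem_filter, decide_eq_true_iff]

set_option maxRecDepth 20000 in
theorem tabT : ∀ c ∈ [(![0, 1, 0, 0] : Fin 4 → ℤ), ![1, 1, 0, 0]], ∀ x ∈ prt, ∀ y ∈ prt, (x = c ∨ 0 < x 2) →
    (y = c ∨ 0 < y 2) → ∀ z ∈ prt, Qb x y z → z = c ∨ 0 < z 2 := by decide +kernel

set_option maxRecDepth 20000 in
theorem tabN : ∀ x ∈ (-sr 3 : Fin 4 → ℤ) :: prt, ∀ y ∈ prt, (y = ![1, 1, 0, 0] ∨ 0 < y 2) → x ≠ -y ∧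
    (x = y ∨ ∀ z ∈ rts, Qb x y z → z ∈ prt ∧ (z = ![1, 1, 0, 0] ∨ 0 < z 2)) := by decide +kernel

set_option maxRecDepth 20000 in
theorem tabR : ∀ y ∈ prt, (y = ![1, 1, 0, 0] ∨ 0 < y 2) → Cfsg.Agent.Nodes.RGDFold.refl RGDTwE6.A 0 y ∈ prt ∧
    (Cfsg.Agent.Nodes.RGDFold.refl RGDTwE6.A 0 y = ![0, 1, 0, 0] ∨
      0 < Cfsg.Agent.Nodes.RGDFold.refl RGDTwE6.A 0 y 2) := by decide +kernel

theorem tabS : ∀ x ∈ rts, x 0 = 0 → x 1 = 0 → x 2 = 0 → x ∈ (-sr 3 : Fin 4 → ℤ) :: prt := by decide +kernel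

/-- the roots of `V_{0,3}` -/
def T0 : Finset (Fin 4 → ℤ) := (prt.filter fun x => 0 < x 1 ∨ 0 < x 2).toFinset

theorem mem_T0 {x : Fin 4 → ℤ} : x ∈ T0 ↔ x ∈ prt ∧ (0 < x 1 ∨ 0 < x 2) := by
  rw [T0, List.mem_toFinset, List.mem_filter, decide_eq_true_iff]

theorem closed_T0 : Closed cs RGDTwE6.isCartan (T0 : Set (Fin 4 → ℤ)) := by
  intro x hx y hy z hz
  rw [Finset.mem_coe, mem_T0] at hx hy ⊢
  refine ⟨mem_prt.2 ⟨hz.1, RGD.nonneg_of_btwn (mem_prt.1 hx.1).2 (mem_prt.1 hy.1).2 hz⟩, ?_⟩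
  rcases hx.2 with h | h
  · exact Or.inl (btwn_apply_pos hz h ((mem_prt.1 hy.1).2 1))
  · exact Or.inr (btwn_apply_pos hz h ((mem_prt.1 hy.1).2 2))

theorem T0_erase : T0.erase ![0, 1, 0, 0] = Tm ![1, 1, 0, 0] ∧ ![0, 1, 0, 0] ∈ T0 ∧
    ![1, 1, 0, 0] ∈ Tm ![1, 1, 0, 0] := by decide +kernel

theorem pt2 : PT 0 ![0, 1, 0, 0] ![1, 1, 0, 0] := by decide +kernel

theorem tabI : ∀ x ∈ prt, (x = ![1, 1, 0, 0] ∨ 0 < x 2) → (x = ![0, 1, 0, 0] ∨ 0 < x 2) → 0 < x 2 := by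
  decide +kernel

theorem tabU : ∀ x ∈ prt, (0 < x 1 ∨ 0 < x 2) → x = ![0, 1, 0, 0] ∨ x = ![1, 1, 0, 0] ∨ 0 < x 2 := by decide +kernel

theorem closed_Tm {c : Fin 4 → ℤ} (hc : c ∈ [(![0, 1, 0, 0] : Fin 4 → ℤ), ![1, 1, 0, 0]]) :
    Closed cs RGDTwE6.isCartan (Tm c : Set (Fin 4 → ℤ)) := by
  intro x hx y hy z hz
  rw [Finset.mem_coe, mem_Tm] at hx hy ⊢
  have hzp : z ∈ prt := mem_prt.2 ⟨hz.1, RGD.nonneg_of_btwn (mem_prt.1 hx.1).2 (mem_prt.1 hy.1).2 hz⟩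
  exact ⟨hzp, tabT c hc x hx.1 y hy.1 hx.2 hy.2 z hzp (btwn_Qb hz)⟩

/-- the words in `0`, `3` -/
theorem exists_W {w : CoxeterMatrix.F₄.Group} (hw : w ∈ WJ cs j03) :
    ∃ w' ∈ WJ cs ({3} : Set (Fin 4)), w = w' ∨ w = cs.simple 0 * w' := by
  obtain ⟨ω, hω, rfl⟩ := Cfsg.Agent.Tits.Exchange.exists_word_of_mem_WJ cs hw
  have h03 : cs.simple 3 * cs.simple 0 = cs.simple 0 * cs.simple 3 := by
    have h1 : (cs.simple 0 * cs.simple 3) ^ CoxeterMatrix.F₄ 0 3 = 1 := cs.simple_mul_simple_pow 0 3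
    have h2 : CoxeterMatrix.F₄ 0 3 = 2 := by decide +kernel
    rw [h2, pow_two] at h1
    have h3 := cs.simple_mul_simple_self 0
    have h4 := cs.simple_mul_simple_self 3
    calc cs.simple 3 * cs.simple 0 = (cs.simple 0 * cs.simple 0) * (cs.simple 3 * cs.simple 0) *
          (cs.simple 3 * cs.simple 3) := by rw [h3, h4]; group
      _ = cs.simple 0 * ((cs.simple 0 * cs.simple 3) * (cs.simple 0 * cs.simple 3)) * cs.simple 3 := by group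
      _ = _ := by rw [h1, mul_one]
  have hs3 : cs.simple 3 ∈ WJ cs ({3} : Set (Fin 4)) := Subgroup.subset_closure ⟨3, rfl, rfl⟩
  induction ω with
  | nil => exact ⟨1, one_mem _, Or.inl cs.wordProd_nil⟩
  | cons i ω ih =>
    have hω' : ∀ k ∈ ω, k ∈ j03 := fun k hk => hω k (List.mem_cons_of_mem _ hk)
    obtain ⟨w', hw', h⟩ := ih hω' (Cfsg.Agent.Tits.Exchange.wordProd_mem_WJ cs hω')
    rw [cs.wordProd_cons]
    rcases hω i List.mem_cons_self with rfl | rfl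
    · rcases h with h | h
      · exact ⟨w', hw', Or.inr (by rw [h])⟩
      · refine ⟨w', hw', Or.inl ?_⟩
        rw [h, ← mul_assoc, cs.simple_mul_simple_self, one_mul]
    · rcases h with h | h
      · exact ⟨cs.simple 3 * w', mul_mem hs3 hw', Or.inl (by rw [h])⟩
      · refine ⟨cs.simple 3 * w', mul_mem hs3 hw', Or.inr ?_⟩
        rw [h, ← mul_assoc, ← mul_assoc, h03]

section

variable {F : Type u} [Field F] [Fintype F] {φ : F →+* F} (hF : Fintype.card F = 4) (hφ : ∀ t, φ t = t ^ 2)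

include hF hφ

/-- `P_{3}` normalises `X_1100 V_3` -/
theorem P3_le_normalizer : P φ ({3} : Set (Fin 4)) ≤
    normalizer (RGD.Sup (X φ) (Tm ![1, 1, 0, 0] : Set (Fin 4 → ℤ)) : Set (KK F)) := by
  have R := rgdK hF hφ
  have key : ∀ x ∈ (-sr 3 : Fin 4 → ℤ) :: prt, IsRoot cs RGDTwE6.isCartan x → X φ x ≤
      normalizer (RGD.Sup (X φ) (Tm ![1, 1, 0, 0] : Set (Fin 4 → ℤ)) : Set (KK F)) := by
    intro x hx hxr
    refine R.le_normalizer hxr fun y hy => ?_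
    obtain ⟨hy1, hy2⟩ := mem_Tm.1 (Finset.mem_coe.1 hy)
    obtain ⟨h1, h2⟩ := tabN x hx y hy1 hy2
    refine ⟨(mem_prt.1 hy1).1, ?_⟩
    rcases h2 with h2 | h2
    · exact Or.inl h2
    · exact Or.inr ⟨h1, fun z hz => Finset.mem_coe.2 (mem_Tm.2 (h2 z ((mem_rts cs).1 hz.1) (btwn_Qb hz)))⟩
  refine sup_le (sup_le (R.T_le_normalizer fun x hx => (mem_prt.1 (mem_Tm.1 (Finset.mem_coe.1 hx)).1).1) ?_) ?_
  · refine RGD.Sup_le fun x hx => ?_
    have h4 := tabS x ((mem_rts cs).1 hx.1) (hx.2 0 (show (0 : Fin 4) ≠ 3 by decide))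
      (hx.2 1 (show (1 : Fin 4) ≠ 3 by decide)) (hx.2 2 (show (2 : Fin 4) ≠ 3 by decide))
    exact key x h4 hx.1
  · refine RGD.Sup_le fun x hx => key x (List.mem_cons_of_mem _ (mem_prt.2 ⟨hx.1, hx.2.1⟩)) hx.1

/-- an element of `X_1100 V_3 ∖ V_3`: its centralizer in `P_{0,3}` is in `P_{3}` -/
theorem mem_P3_of {g z : KK F} (hg : g ∈ P φ j03) (hz : z ∈ RGD.Sup (X φ) (Tm ![1, 1, 0, 0] : Set (Fin 4 → ℤ)))
    (hz3 : z ∉ V φ j3) (hgz : g * z = z * g) : g ∈ P φ ({3} : Set (Fin 4)) := by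
  have := finite_WF
  have R := rgdK hF hφ
  obtain ⟨w, hw, b₁, hb₁, k, hk, b₂, hb₂, rfl⟩ := (mem_PJ_iff_cell R).1 hg
  obtain ⟨w', hw', h | h⟩ := exists_W hw
  · subst h
    exact mul_mem (mul_mem (B_le_PJ hb₁) (LJ_le_PJ (rp_mem_LJ R hw' hk))) (B_le_PJ hb₂)
  · exfalso
    apply hz3
    have hN := P3_le_normalizer hF hφ
    have hb1 : b₁ ∈ P φ ({3} : Set (Fin 4)) := B_le_PJ hb₁
    have hk' : Rp cs R.nsys w' ((RGDTwE6.nn hφ 0)⁻¹ * k) := by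
      have h1 := (rp_simple cs R.nsys 0).inv.mul hk
      rwa [h, CoxeterSystem.inv_simple, ← mul_assoc, cs.simple_mul_simple_self, one_mul] at h1
    have hk2 : (RGDTwE6.nn hφ 0)⁻¹ * k * b₂ ∈ P φ ({3} : Set (Fin 4)) :=
      mul_mem (LJ_le_PJ (rp_mem_LJ R hw' hk')) (B_le_PJ hb₂)
    have h1 := (Subgroup.mem_normalizer_iff.1 (hN hk2) z).1 hz
    have h2 : b₁⁻¹ * z * b₁ ∈ RGD.Sup (X φ) (Tm ![1, 1, 0, 0] : Set (Fin 4 → ℤ)) := by
      have := (Subgroup.mem_normalizer_iff.1 (hN (inv_mem hb1)) z).1 hz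
      rwa [inv_inv] at this
    have h3 := conj_mem_Sup R (rp_simple cs R.nsys 0) (S' := (Tm ![0, 1, 0, 0] : Set (Fin 4 → ℤ)))
      (fun x hx => (mem_prt.1 (mem_Tm.1 (Finset.mem_coe.1 hx)).1).1)
      (fun x hx => by
        obtain ⟨h4, h5⟩ := mem_Tm.1 (Finset.mem_coe.1 hx)
        rw [Cfsg.Agent.KFacts.TwESix.Comb.rep_simple_refl]
        exact Finset.mem_coe.2 (mem_Tm.2 (tabR x h4 h5))) h1
    have e : b₁ * k * b₂ * z * (b₁ * k * b₂)⁻¹ = z := by rw [hgz]; group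
    have e2 : RGDTwE6.nn hφ 0 * ((RGDTwE6.nn hφ 0)⁻¹ * k * b₂ * z * ((RGDTwE6.nn hφ 0)⁻¹ * k * b₂)⁻¹) *
        (RGDTwE6.nn hφ 0)⁻¹ = b₁⁻¹ * z * b₁ := by
      calc RGDTwE6.nn hφ 0 * ((RGDTwE6.nn hφ 0)⁻¹ * k * b₂ * z * ((RGDTwE6.nn hφ 0)⁻¹ * k * b₂)⁻¹) *
          (RGDTwE6.nn hφ 0)⁻¹ = b₁⁻¹ * (b₁ * k * b₂ * z * (b₁ * k * b₂)⁻¹) * b₁ := by group
        _ = _ := by rw [e]
    rw [e2] at h3
    have h4 : b₁⁻¹ * z * b₁ ∈ V φ j3 := by
      have h5 := inf_eq R (S := (Tm ![1, 1, 0, 0] : Set (Fin 4 → ℤ))) (S' := (Tm ![0, 1, 0, 0] : Set (Fin 4 → ℤ)))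
        (fun x hx => mem_prt.1 (mem_Tm.1 (Finset.mem_coe.1 hx)).1)
        (fun x hx => mem_prt.1 (mem_Tm.1 (Finset.mem_coe.1 hx)).1) (closed_Tm (by simp)) (closed_Tm (by simp))
      have h6 : b₁⁻¹ * z * b₁ ∈ RGD.Sup (X φ) ((Tm ![1, 1, 0, 0] : Set (Fin 4 → ℤ)) ∩ (Tm ![0, 1, 0, 0] : Set (Fin 4 → ℤ))) := by
        rw [← h5]; exact ⟨h2, h3⟩
      refine RGD.Sup_mono (X := X φ) (fun x hx => ?_) h6
      obtain ⟨h7, h8⟩ := mem_Tm.1 (Finset.mem_coe.1 hx.1)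
      obtain ⟨-, h9⟩ := mem_Tm.1 (Finset.mem_coe.1 hx.2)
      exact ⟨(mem_prt.1 h7).1, (mem_prt.1 h7).2, 2, fun h => h rfl, tabI x h7 h8 h9⟩
    have hb13 : b₁ ∈ P φ j3 := B_le_PJ hb₁
    have h5 := (Subgroup.mem_normalizer_iff.1 (PJ_le_normalizer_VJ R j3 hb13) (b₁⁻¹ * z * b₁)).1 h4
    have e3 : b₁ * (b₁⁻¹ * z * b₁) * b₁⁻¹ = z := by group
    rwa [e3] at h5

theorem PJ_mono' {J J' : Set (Fin 4)} (h : J ⊆ J') : P φ J ≤ P φ J' :=
  sup_le ((LJ_mono h).trans LJ_le_PJ) (VJ_le_B J |>.trans B_le_PJ)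

/-- **E5 for `P_{0,3}`.** -/
theorem in_or_cr {g z : KK F} (hg : g ∈ P φ j03) (hz : z ∈ V φ j03) (hz1 : z ≠ 1) (hgz : g * z = z * g)
    (h5 : 5 ∣ orderOf g) : In φ j1 g ∨ CR g := by
  have := finite_WF
  have R := rgdK hF hφ
  by_cases hz3 : z ∈ V φ j3
  · right
    refine cr_j3 hF hφ (PJ_mono' hF hφ (fun k hk => ?_) hg) hz3 hz1 hgz h5
    rcases hk with rfl | rfl
    · change (0 : Fin 4) ≠ 2; decide
    · change (3 : Fin 4) ≠ 2; decide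
  · left
    have hS : ((T0 : Finset (Fin 4 → ℤ)) : Set (Fin 4 → ℤ)) ⊆ RGD.Pos cs RGDTwE6.isCartan := fun x hx =>
      mem_prt.1 (mem_T0.1 (Finset.mem_coe.1 hx)).1
    have hS' : ((Tm ![1, 1, 0, 0] : Finset (Fin 4 → ℤ)) : Set (Fin 4 → ℤ)) ⊆ RGD.Pos cs RGDTwE6.isCartan :=
      fun x hx => mem_prt.1 (mem_Tm.1 (Finset.mem_coe.1 hx)).1
    obtain ⟨t1, t2, t3⟩ := T0_erase
    have hz0 : z ∈ RGD.Sup (X φ) (T0 : Set (Fin 4 → ℤ)) := by
      refine RGD.Sup_mono (X := X φ) (fun x hx => ?_) hz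
      obtain ⟨h1, h2, k, hk, h3⟩ := hx
      refine Finset.mem_coe.2 (mem_T0.2 ⟨mem_prt.2 ⟨h1, h2⟩, ?_⟩)
      have h4 : ∀ k : Fin 4, ¬ (k = 0 ∨ k = 3) → k = 1 ∨ k = 2 := by decide
      rcases h4 k hk with rfl | rfl
      · exact Or.inl h3
      · exact Or.inr h3
    obtain ⟨a, ha, w, hw, rfl⟩ := (mem_peel R hS closed_T0 (Finset.mem_coe.2 t2)).1 hz0
    rw [← Finset.coe_erase, t1] at hw
    obtain ⟨b, hb, v, hv, rfl⟩ := (mem_peel R hS' (closed_Tm (by simp)) (Finset.mem_coe.2 t3)).1 hw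
    have hv' : v ∈ V φ j3 := by
      refine RGD.Sup_mono (X := X φ) (fun x hx => ?_) hv
      obtain ⟨h1, h2⟩ := mem_Tm.1 (Finset.mem_coe.1 hx.1)
      rcases h2 with h2 | h2
      · exact absurd h2 hx.2
      · exact ⟨(mem_prt.1 h1).1, (mem_prt.1 h1).2, 2, fun h => h rfl, h2⟩
    obtain ⟨r, hr⟩ := conj_pair hF hφ pt2 ha hb
    obtain ⟨p, hp⟩ : ∃ p, p = Pn hF hφ 0 r := ⟨_, rfl⟩
    have hpL : ∀ J : Set (Fin 4), (0 : Fin 4) ∈ J → p ∈ P φ J := by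
      intro J hJ
      have h1 : (Pn hF hφ 0).range ≤ P φ J := by
        rw [Cfsg.Agent.UGT.U2.FOne.TwESix.range_P hφ (hqq_of hF) 0]
        refine sup_le ?_ ?_ <;> refine (X_le_LJ (J := J) ?_).trans LJ_le_PJ
        · exact ⟨isRoot_sr cs _ 0, fun k hk => sr_ne fun h1 => hk (by rw [h1]; exact hJ)⟩
        · refine ⟨(isRoot_sr cs _ 0).neg, fun k hk => ?_⟩
          rw [Pi.neg_apply, sr_ne fun h1 => hk (by rw [h1]; exact hJ), neg_zero]
      rw [hp]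
      exact h1 ⟨r, rfl⟩
    have hp3 : p ∈ P φ j3 := hpL j3 (show (0 : Fin 4) ≠ 2 by decide)
    have hp03 : p ∈ P φ j03 := hpL j03 (Or.inl rfl)
    rw [← hp] at hr
    have hz' : p * (a * (b * v)) * p⁻¹ ∈ RGD.Sup (X φ) (Tm ![1, 1, 0, 0] : Set (Fin 4 → ℤ)) := by
      have e : p * (a * (b * v)) * p⁻¹ = (p * (a * b) * p⁻¹) * (p * v * p⁻¹) := by group
      rw [e]
      refine mul_mem (RGD.le_Sup (Finset.mem_coe.2 t3) hr) ?_
      refine RGD.Sup_mono (X := X φ) (fun x hx => ?_)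
        ((Subgroup.mem_normalizer_iff.1 (PJ_le_normalizer_VJ R j3 hp3) v).1 hv')
      obtain ⟨h1, h2, k, hk, h3⟩ := hx
      have hk2 : k = 2 := by
        by_contra h
        exact hk h
      subst hk2
      exact Finset.mem_coe.2 (mem_Tm.2 ⟨mem_prt.2 ⟨h1, h2⟩, Or.inr h3⟩)
    have hz3' : p * (a * (b * v)) * p⁻¹ ∉ V φ j3 := fun h =>
      hz3 ((Subgroup.mem_normalizer_iff.1 (PJ_le_normalizer_VJ R j3 hp3) _).2 h)
    have hgp : p * g * p⁻¹ ∈ P φ j03 := mul_mem (mul_mem hp03 hg) (inv_mem hp03)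
    have hc : p * g * p⁻¹ * (p * (a * (b * v)) * p⁻¹) = p * (a * (b * v)) * p⁻¹ * (p * g * p⁻¹) := by
      calc p * g * p⁻¹ * (p * (a * (b * v)) * p⁻¹) = p * (g * (a * (b * v))) * p⁻¹ := by group
        _ = p * ((a * (b * v)) * g) * p⁻¹ := by rw [hgz]
        _ = _ := by group
    have h6 := mem_P3_of hF hφ hgp hz' hz3' hc
    refine ⟨p, PJ_mono' hF hφ (fun k hk => ?_) h6⟩
    rw [Set.mem_singleton_iff] at hk
    subst hk
    change (3 : Fin 4) ≠ 0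
    decide

end

end Cfsg.Agent.H150.QF
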