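import Cfsg.Agent.Lib.ComponentSolvable
import Cfsg.Agent.SignalizersComponents.SLQuasisimple

/-!
# Elements of order five acting on a section of order 16 (S2491, row F4, E5; helper150)
-/

set_option autoImplicit false
set_option linter.style.haveILetI false

namespace Cfsg.Agent.H150.QF.Fix

open Subgroup

/-- an automorphism of order dividing five of a group of order 16 with a nontrivial fixed point is trivial -/
theorem aut_five {Q : Type*} [Group Q] [Finite Q] (hQ : Nat.card Q = 16) (f : Q →* Q)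
    (hf : ∀ x, f (f (f (f (f x)))) = x) {x : Q} (hx : f x = x) (h1 : x ≠ 1) (y : Q) : f y = y := by
  classical
  haveI := Fintype.ofFinite Q
  haveI : Fact (Nat.Prime 5) := ⟨by norm_num⟩
  have h2 : Nat.card (MonoidHom.eqLocus f (MonoidHom.id Q)) ∣ 16 := by
    rw [← hQ]; exact Subgroup.card_subgroup_dvd_card _
  have h3 : Fintype.card Q ≡ Fintype.card (Function.fixedPoints (f : Q → Q)) [MOD 5] := by
    let g : Function.End Q := fun x => f x
    have h4 : g ^ 5 ^ 1 = 1 := by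
      have h5 : g ^ 5 ^ 1 = g * (g * (g * (g * g))) := by
        rw [pow_one, pow_succ', pow_succ', pow_succ', pow_succ', pow_one]
      rw [h5]
      funext z
      exact hf z
    exact Equiv.Perm.card_fixedPoints_modEq h4
  have h5 : Fintype.card (Function.fixedPoints (f : Q → Q)) = Nat.card (MonoidHom.eqLocus f (MonoidHom.id Q)) := by
    rw [← Nat.card_eq_fintype_card]
    rfl
  rw [h5, ← Nat.card_eq_fintype_card, hQ] at h3
  have h6 : Nat.card (MonoidHom.eqLocus f (MonoidHom.id Q)) ≠ 1 := by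
    intro h
    rw [Subgroup.card_eq_one] at h
    have h7 : x ∈ MonoidHom.eqLocus f (MonoidHom.id Q) := hx
    rw [h, Subgroup.mem_bot] at h7
    exact h1 h7
  have h8 : Nat.card (MonoidHom.eqLocus f (MonoidHom.id Q)) = 16 := by
    generalize Nat.card (MonoidHom.eqLocus f (MonoidHom.id Q)) = n at h2 h3 h6
    have h9 : n ≤ 16 := Nat.le_of_dvd (by norm_num) h2
    interval_cases n <;> revert h2 h3 h6 <;> decide
  have h10 : MonoidHom.eqLocus f (MonoidHom.id Q) = ⊤ := by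
    apply Subgroup.eq_top_of_card_eq
    rw [h8, hQ]
  have h11 : y ∈ MonoidHom.eqLocus f (MonoidHom.id Q) := by rw [h10]; exact Subgroup.mem_top y
  exact h11

variable {Y : Type*} [Group Y] [Finite Y] {A B : Subgroup Y}

/-- the same for a section `A / B` -/
theorem sect_five (hBA : B ≤ A) (hAB : A ≤ normalizer (B : Set Y)) (hcard : Nat.card A = 16 * Nat.card B) {d : Y}
    (hdA : d ∈ normalizer (A : Set Y)) (hdB : d ∈ normalizer (B : Set Y)) (h5 : d ^ 5 = 1) {z : Y} (hz : z ∈ A)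
    (hzB : z ∉ B) (hdz : d * z * d⁻¹ * z⁻¹ ∈ B) : ∀ a ∈ A, d * a * d⁻¹ * a⁻¹ ∈ B := by
  haveI hN : (B.subgroupOf A).Normal := (Subgroup.normal_subgroupOf_iff_le_normalizer hBA).2 hAB
  have hQ : Nat.card (A ⧸ B.subgroupOf A) = 16 := by
    have h1 := Subgroup.card_eq_card_quotient_mul_card_subgroup (B.subgroupOf A)
    rw [Nat.card_congr (Subgroup.subgroupOfEquivOfLe hBA).toEquiv, hcard] at h1
    exact (Nat.eq_of_mul_eq_mul_right Nat.card_pos h1).symm
  let c : A →* A := ((MulAut.conj d).toMonoidHom.comp A.subtype).codRestrict A fun a =>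
    (Subgroup.mem_normalizer_iff.1 hdA a).1 a.2
  have hc : ∀ a : A, ((c a : A) : Y) = d * a * d⁻¹ := fun a => rfl
  let f : (A ⧸ B.subgroupOf A) →* (A ⧸ B.subgroupOf A) := QuotientGroup.map (B.subgroupOf A) (B.subgroupOf A) c (by
    intro b hb
    rw [Subgroup.mem_comap, Subgroup.mem_subgroupOf, hc]
    exact (Subgroup.mem_normalizer_iff.1 hdB _).1 (Subgroup.mem_subgroupOf.1 hb))
  have hf1 : ∀ a : A, f (a : A ⧸ B.subgroupOf A) = (c a : A ⧸ B.subgroupOf A) := fun a => rfl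
  have hmk : ∀ a b : A, ((a : A ⧸ B.subgroupOf A) = b) ↔ (a : Y) * (b : Y)⁻¹ ∈ B := by
    intro a b
    rw [QuotientGroup.eq, Subgroup.mem_subgroupOf]
    have h1 := Subgroup.mem_normalizer_iff.1 (hAB a.2) ((a : Y)⁻¹ * b)
    have e1 : (a : Y) * ((a : Y)⁻¹ * b) * (a : Y)⁻¹ = ((a : Y) * (b : Y)⁻¹)⁻¹ := by group
    rw [e1, inv_mem_iff] at h1
    exact h1
  have hf5 : ∀ x, f (f (f (f (f x)))) = x := by
    intro x
    obtain ⟨a, rfl⟩ := QuotientGroup.mk_surjective x
    rw [hf1, hf1, hf1, hf1, hf1]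
    congr 1
    apply Subtype.ext
    rw [hc, hc, hc, hc, hc]
    calc d * (d * (d * (d * (d * (a : Y) * d⁻¹) * d⁻¹) * d⁻¹) * d⁻¹) * d⁻¹ =
          (d * (d * (d * (d * d)))) * a * (d * (d * (d * (d * d))))⁻¹ := by group
      _ = d ^ 5 * a * (d ^ 5)⁻¹ := by
          rw [pow_succ', pow_succ', pow_succ', pow_succ', pow_one]
      _ = a := by rw [h5]; group
  have hz1 : f ((⟨z, hz⟩ : A) : A ⧸ B.subgroupOf A) = ((⟨z, hz⟩ : A) : A ⧸ B.subgroupOf A) := by
    rw [hf1, hmk, hc]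
    exact hdz
  have hz2 : ((⟨z, hz⟩ : A) : A ⧸ B.subgroupOf A) ≠ 1 := by
    intro h
    rw [QuotientGroup.eq_one_iff, Subgroup.mem_subgroupOf] at h
    exact hzB h
  intro a ha
  have h2 := aut_five hQ f hf5 hz1 hz2 ((⟨a, ha⟩ : A) : A ⧸ B.subgroupOf A)
  rw [hf1, hmk, hc] at h2
  exact h2

/-- the elements acting trivially on a section -/
def Ct (A B : Subgroup Y) (f : Y) : Prop := ∀ a ∈ A, f * a * f⁻¹ * a⁻¹ ∈ B

omit [Finite Y] in
/-- `SL₂(q)`, `q ≥ 4`: the kernel of the action on a section -/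
theorem sl_all {k : Type*} [Field k] [Finite k] (h4 : 4 ≤ Nat.card k)
    (f : Matrix.SpecialLinearGroup (Fin 2) k →* Y) (hA : f.range ≤ normalizer (A : Set Y))
    (hB : f.range ≤ normalizer (B : Set Y)) {s : Matrix.SpecialLinearGroup (Fin 2) k} (hs : s * s ≠ 1)
    (hd : Ct A B (f s)) (r : Matrix.SpecialLinearGroup (Fin 2) k) : Ct A B (f r) := by
  have hAn : ∀ (x : Matrix.SpecialLinearGroup (Fin 2) k), ∀ a ∈ A, f x * a * (f x)⁻¹ ∈ A := fun x a ha =>
    (Subgroup.mem_normalizer_iff.1 (hA ⟨x, rfl⟩) a).1 ha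
  have hBn : ∀ (x : Matrix.SpecialLinearGroup (Fin 2) k), ∀ a ∈ B, f x * a * (f x)⁻¹ ∈ B := fun x a ha =>
    (Subgroup.mem_normalizer_iff.1 (hB ⟨x, rfl⟩) a).1 ha
  let C : Subgroup (Matrix.SpecialLinearGroup (Fin 2) k) :=
    { carrier := {x | Ct A B (f x)}
      one_mem' := by
        intro a _
        rw [map_one]
        have e : (1 : Y) * a * 1⁻¹ * a⁻¹ = 1 := by group
        rw [e]; exact one_mem _
      mul_mem' := by
        intro x y hx hy a ha
        have e : f (x * y) * a * (f (x * y))⁻¹ * a⁻¹ =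
            (f x * (f y * a * (f y)⁻¹) * (f x)⁻¹ * (f y * a * (f y)⁻¹)⁻¹) * (f y * a * (f y)⁻¹ * a⁻¹) := by
          rw [map_mul]; group
        rw [e]
        exact mul_mem (hx _ (hAn y a ha)) (hy a ha)
      inv_mem' := by
        intro x hx a ha
        have h1 := hAn x⁻¹ a ha
        have h3 := inv_mem (hx _ h1)
        have e : f x⁻¹ * a * (f x⁻¹)⁻¹ * a⁻¹ =
            (f x * (f x⁻¹ * a * (f x⁻¹)⁻¹) * (f x)⁻¹ * (f x⁻¹ * a * (f x⁻¹)⁻¹)⁻¹)⁻¹ := by
          rw [map_inv]; group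
        rw [e]; exact h3 }
  have hCn : C.Normal := by
    constructor
    intro x hx g a ha
    have h1 := hAn g⁻¹ a ha
    have h3 := hBn g _ (hx _ h1)
    have e : f (g * x * g⁻¹) * a * (f (g * x * g⁻¹))⁻¹ * a⁻¹ =
        f g * (f x * (f g⁻¹ * a * (f g⁻¹)⁻¹) * (f x)⁻¹ * (f g⁻¹ * a * (f g⁻¹)⁻¹)⁻¹) * (f g)⁻¹ := by
      rw [map_mul, map_mul, map_inv]; group
    rw [e]; exact h3
  have hq := Cfsg.Agent.SignalizersComponents.SLQuasisimple.isQuasisimple_two (F := k) h4
  rcases Cfsg.Agent.Lib.ComponentSolvable.quasisimple_normal_cases hq (N := C) hCn with h | h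
  · have h3 : r ∈ C := by rw [h]; exact Subgroup.mem_top r
    exact h3
  · exfalso
    have h3 : s ∈ Subgroup.center (Matrix.SpecialLinearGroup (Fin 2) k) := h hd
    obtain ⟨t, ht, hts⟩ := Matrix.SpecialLinearGroup.mem_center_iff.1 h3
    apply hs
    apply Subtype.ext
    rw [Matrix.SpecialLinearGroup.coe_mul, ← hts, ← map_mul]
    have : t * t = 1 := by simpa [pow_two] using ht
    rw [this, map_one]
    rfl

end Cfsg.Agent.H150.QF.Fix
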