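import Cfsg.Agent.H150.QF.Str
import Cfsg.Agent.LThreeTwE6.Par
import Cfsg.Agent.H297.QF.Su

/-!
# Long root elements in `²E₆(2)` (S2491, row F4; helper150)

* `comm_of` : commuting root groups; `conj_pair` : the rank one group of a long node is transitive on `(X_β X_γ) ∖ 1`, `γ = β + α_i`;
* `re_of` : conjugates of elements of `X_θ` are root elements;
* `re_last` : the nontrivial elements of `⟨X_1242, X_1342, X_2342⟩` are root elements.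
-/

set_option autoImplicit false
set_option linter.unusedSectionVars false
set_option linter.style.haveILetI false

namespace Cfsg.Agent.H150.QF

open CoxeterSystem Cfsg.Agent.ChevalleyStructure.CoxeterGeom Cfsg.Agent.Tits.Roots Cfsg.Agent.Tits.Core
  Cfsg.Agent.Nodes Cfsg.Agent.Nodes.Reps Cfsg.Agent.Nodes.BNOf Cfsg.Agent.Nodes.RGDLib Cfsg.Agent.Nodes.Bruhat
  Cfsg.Agent.Nodes.OppDec Cfsg.Agent.Nodes.LeviDec Cfsg.Agent.Nodes.StabComb Cfsg.Agent.Nodes.Unique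
open Cfsg.Lie Subgroup
open Cfsg.Agent.H231.QF
open Cfsg.Agent.KFacts.TwESix.Comb (bf rts mem_rts bf_rep norm exists_rep_long exists_rep_short)
open Cfsg.Agent.Nodes.RGDFoldSL (Fx mem_Fx wS)
open Cfsg.Agent.Nodes.RGDTwNode.E6 (rest)
open Cfsg.Agent.ChevalleyStructure.SL2Hom (up lo)
open scoped commutatorElement

universe u

theorem lo_neg {k : Type*} [Field k] : (lo (-(1 : k)⁻¹) : Matrix.SpecialLinearGroup (Fin 2) k) =
    wS 1 * up 1 * (wS 1)⁻¹ := by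
  rw [eq_mul_inv_iff_mul_eq]
  apply Subtype.ext
  rw [Matrix.SpecialLinearGroup.coe_mul, Matrix.SpecialLinearGroup.coe_mul,
    Cfsg.Agent.Nodes.RGDFoldSL.coe_wS one_ne_zero]
  change !![(1 : k), 0; -(1 : k)⁻¹, 1] * _ = _ * !![(1 : k), 1; 0, 1]
  ext i j
  fin_cases i <;> fin_cases j <;> simp [Matrix.mul_apply, Fin.sum_univ_two]

theorem wS_eq3 {k : Type*} [Field k] : (wS (1 : k) : Matrix.SpecialLinearGroup (Fin 2) k) =
    up 1 * ((wS 1 * up 1 * (wS 1)⁻¹) * up 1) := by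
  rw [← lo_neg]
  rfl

/-- the table of a pair of long roots `β`, `γ = β + α_i` -/
def PT (i : Fin 4) (β γ : Fin 4 → ℤ) : Prop :=
  β ∈ prt ∧ γ ∈ prt ∧ wgt β = 2 ∧ wgt γ = 2 ∧ β ≠ γ ∧ Cfsg.Agent.Nodes.RGDFold.refl RGDTwE6.A i β = γ ∧
    Cfsg.Agent.Nodes.RGDFold.refl RGDTwE6.A i γ = β ∧ (∀ z ∈ rts, ¬ Qb β γ z) ∧ (∀ z ∈ rts, ¬ Qb (sr i) γ z) ∧
    (∀ z ∈ rts, Qb (sr i) β z → z = γ) ∧ sr i ∈ rts ∧ sr i ≠ β ∧ sr i ≠ -β ∧ sr i ≠ γ ∧ sr i ≠ -γ ∧ β ≠ -γ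

instance (i : Fin 4) (β γ : Fin 4 → ℤ) : Decidable (PT i β γ) := by unfold PT; infer_instance

theorem tab_th : ∀ x ∈ prt, 0 ≤ bf x th := by decide +kernel

theorem th_rts : th ∈ prt ∧ wgt th = 2 ∧ bf th th = 4 := by decide +kernel

theorem pt0 : PT 0 ![1, 3, 4, 2] th := by decide +kernel

theorem pt1 : PT 1 ![1, 2, 4, 2] ![1, 3, 4, 2] := by decide +kernel

theorem tab19 : (Sm 19).erase ![1, 2, 4, 2] = Sm 20 ∧ (Sm 20).erase ![1, 3, 4, 2] = Sm 21 ∧ Sm 21 = {th} ∧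
    ![1, 2, 4, 2] ∈ Sm 19 ∧ ![1, 3, 4, 2] ∈ Sm 20 := by decide +kernel

theorem tab0 : ∀ x ∈ [(sr 0 : Fin 4 → ℤ), -sr 0], x ∈ rts ∧ 0 ≤ bf x ![1, 2, 4, 2] := by decide +kernel

theorem tab0' : (![1, 2, 4, 2] : Fin 4 → ℤ) ∈ rts ∧ bf ![1, 2, 4, 2] ![1, 2, 4, 2] = 4 := by decide +kernel

section

variable {F : Type u} [Field F] [Fintype F] {φ : F →+* F} (hF : Fintype.card F = 4) (hφ : ∀ t, φ t = t ^ 2)

/-- the homomorphisms of the nodes -/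
noncomputable abbrev Pn (i : Fin 4) : Matrix.SpecialLinearGroup (Fin 2) (Fx φ ((rest i).length + 1)) →* KK F :=
  Cfsg.Agent.UGT.U2.FOne.TwESix.P hφ (hqq_of hF) i

include hF hφ

theorem comm_of {x y : Fin 4 → ℤ} (hx : x ∈ rts) (hy : y ∈ rts) (h1 : x ≠ y) (h2 : x ≠ -y) (hb : ∀ z ∈ rts, ¬ Qb x y z)
    {a b : KK F} (ha : a ∈ X φ x) (hb' : b ∈ X φ y) : a * b = b * a := by
  have R := rgdK hF hφ
  have h3 := R.comm x y ((mem_rts cs).2 hx) ((mem_rts cs).2 hy) h1 h2 a ha b hb'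
  have h4 := R.btw_le_Sup (S := (∅ : Set (Fin 4 → ℤ))) (fun z hz => absurd (btwn_Qb hz) (hb z ((mem_rts cs).1 hz.1))) h3
  rw [Sup_empty, Subgroup.mem_bot, commutatorElement_def, mul_inv_eq_one] at h4
  calc a * b = a * b * a⁻¹ * a := by group
    _ = b * a := by rw [h4]

theorem comm_long {x z : Fin 4 → ℤ} (hx : x ∈ rts) (hz : z ∈ rts) (hl : bf z z = 4) (h : 0 ≤ bf x z)
    {a b : KK F} (ha : a ∈ X φ x) (hb : b ∈ X φ z) : a * b = b * a := by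
  by_cases hb1 : b = 1
  · rw [hb1]; group
  refine (Cfsg.Agent.H297.QF.Su.comm_iff hF hφ ((mem_rts cs).2 hz) hl hb hb1 a).2 ?_
  have h1 : x ∈ Cfsg.Agent.KFacts.RgdTI.Ge cs RGDTwE6.isCartan z :=
    ⟨(mem_rts cs).2 hx, (Cfsg.Agent.KFacts.TwESix.Comb.ge_iff cs ((mem_rts cs).2 hz) hl).2 h⟩
  exact Cfsg.Agent.KFacts.RgdPar.X_le_PS h1 ha

theorem two_of {x : Fin 4 → ℤ} (hx : x ∈ rts) (hw : wgt x = 2) {a b : KK F} (ha : a ∈ X φ x) (hb : b ∈ X φ x)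
    (ha1 : a ≠ 1) (hb1 : b ≠ 1) : a = b := by
  have h1 := card_X hF hφ ((mem_rts cs).2 hx)
  rw [hw] at h1
  obtain ⟨u, v, huv, hu⟩ := Nat.card_eq_two_iff.1 h1
  have key : ∀ t : X φ x, t = u ∨ t = v := fun t => by
    have : t ∈ ({u, v} : Set (X φ x)) := by rw [hu]; trivial
    simpa using this
  have ka := key ⟨a, ha⟩
  have kb := key ⟨b, hb⟩
  have k1 := key 1
  have e1 : (⟨a, ha⟩ : X φ x) ≠ 1 := fun h => ha1 (congrArg Subtype.val h)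
  have e2 : (⟨b, hb⟩ : X φ x) ≠ 1 := fun h => hb1 (congrArg Subtype.val h)
  have h3 : (⟨a, ha⟩ : X φ x) = ⟨b, hb⟩ := by
    rcases k1 with k | k <;> rcases ka with k' | k' <;> rcases kb with k'' | k''
    all_goals first
      | exact k'.trans k''.symm
      | exact absurd (k'.trans k.symm) e1
      | exact absurd (k''.trans k.symm) e2
  exact congrArg Subtype.val h3

theorem conj_refl (i : Fin 4) {β γ : Fin 4 → ℤ} (hβ : β ∈ rts) (h1 : Cfsg.Agent.Nodes.RGDFold.refl RGDTwE6.A i β = γ)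
    {y : KK F} (hy : y ∈ X φ β) : Pn hF hφ i (wS 1) * y * (Pn hF hφ i (wS 1))⁻¹ ∈ X φ γ := by
  have R := rgdK hF hφ
  have hn : Pn hF hφ i (wS 1) = RGDTwE6.nn hφ i := Cfsg.Agent.UGT.U2.FOne.TwESix.P_wS hφ (hqq_of hF) i
  rw [hn, ← h1, ← Cfsg.Agent.KFacts.TwESix.Comb.rep_simple_refl cs i β]
  exact R.conj_mem (rp_simple cs R.nsys i) ((mem_rts cs).2 hβ) hy

/-- **Pairs of long roots.** -/
theorem conj_pair {i : Fin 4} {β γ : Fin 4 → ℤ} (hP : PT i β γ) {y y' : KK F} (hy : y ∈ X φ β) (hy' : y' ∈ X φ γ) :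
    ∃ r, Pn hF hφ i r * (y * y') * (Pn hF hφ i r)⁻¹ ∈ X φ γ := by
  have := finite_WF
  have R := rgdK hF hφ
  obtain ⟨hβ, hγ, wβ, wγ, hne, h1, h2, h3, h4, h5, h6, h7, h8, h9, h10, h11⟩ := hP
  have rβ := (prt_a β hβ).1
  have rγ := (prt_a γ hγ).1
  by_cases hy1 : y = 1
  · refine ⟨1, ?_⟩
    rw [map_one, hy1]
    have e : (1 : KK F) * (1 * y') * 1⁻¹ = y' := by group
    rw [e]; exact hy'
  by_cases hy1' : y' = 1
  · refine ⟨wS 1, ?_⟩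
    rw [hy1', mul_one]
    exact conj_refl hF hφ i rβ h1 hy
  have hu : Pn hF hφ i (up 1) ∈ X φ (sr i) := (Cfsg.Agent.UGT.U2.FOne.TwESix.mem_X_sr hφ (hqq_of hF) i).2 ⟨1, rfl⟩
  obtain ⟨u, hu'⟩ : ∃ u, u = Pn hF hφ i (up 1) := ⟨_, rfl⟩
  obtain ⟨n, hn'⟩ : ∃ n, n = Pn hF hφ i (wS 1) := ⟨_, rfl⟩
  rw [← hu'] at hu
  have k1 := conj_refl hF hφ i rβ h1 hy
  have k2 := conj_refl hF hφ i rγ h2 hy'
  rw [← hn'] at k1 k2
  have cne : ∀ {x : KK F}, x ≠ 1 → n * x * n⁻¹ ≠ 1 := fun {x} hx h => hx (by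
    calc x = n⁻¹ * (n * x * n⁻¹) * n := by group
      _ = 1 := by rw [h]; group)
  have e1 : n * y * n⁻¹ = y' := two_of hF hφ rγ wγ k1 hy' (cne hy1) hy1'
  have e2 : n * y' * n⁻¹ = y := two_of hF hφ rβ wβ k2 hy (cne hy1') hy1
  have cy : y * y' = y' * y := comm_of hF hφ rβ rγ hne h11 h3 hy hy'
  have cu : u * y' = y' * u := comm_of hF hφ h6 rγ h9 h10 h4 hu hy'
  have hc : ⁅u, y⁆ ∈ X φ γ := by
    have k3 := R.comm (sr i) β ((mem_rts cs).2 h6) ((mem_rts cs).2 rβ) h7 h8 u hu y hy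
    have k4 := R.btw_le_Sup (S := ({γ} : Set (Fin 4 → ℤ)))
      (fun z hz => Set.mem_singleton_iff.2 (h5 z ((mem_rts cs).1 hz.1) (btwn_Qb hz))) k3
    exact RGD.Sup_le (S := ({γ} : Set (Fin 4 → ℤ))) (fun z hz => by rw [Set.mem_singleton_iff.1 hz]) k4
  have hc1 : ⁅u, y⁆ ≠ 1 := by
    intro h
    rw [commutatorElement_def, mul_inv_eq_one] at h
    have cu' : u * y = y * u := by
      calc u * y = u * y * u⁻¹ * u := by group
        _ = y * u := by rw [h]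
    have hnu : n = u * ((n * u * n⁻¹) * u) := by
      rw [hn', hu', ← map_inv, ← map_mul, ← map_mul, ← map_mul, ← map_mul, ← wS_eq3]
    have cl : (n * u * n⁻¹) * y = y * (n * u * n⁻¹) := by
      calc (n * u * n⁻¹) * y = n * u * n⁻¹ * (n * y' * n⁻¹) := by rw [e2]
        _ = n * (u * y') * n⁻¹ := by group
        _ = n * (y' * u) * n⁻¹ := by rw [cu]
        _ = (n * y' * n⁻¹) * (n * u * n⁻¹) := by group
        _ = y * (n * u * n⁻¹) := by rw [e2]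
    have cn : n * y = y * n := by
      calc n * y = (u * ((n * u * n⁻¹) * u)) * y := by rw [← hnu]
        _ = u * ((n * u * n⁻¹) * (u * y)) := by group
        _ = u * (((n * u * n⁻¹) * y) * u) := by rw [cu']; group
        _ = (u * y) * ((n * u * n⁻¹) * u) := by rw [cl]; group
        _ = y * (u * ((n * u * n⁻¹) * u)) := by rw [cu']; group
        _ = y * n := by rw [← hnu]
    have e3 : n * y * n⁻¹ = y := by rw [cn]; group
    rw [e1] at e3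
    have k5 : y ∈ X φ β ⊓ X φ γ := ⟨hy, e3 ▸ hy'⟩
    rw [X_inf_X R ((mem_rts cs).2 rβ) ((mem_rts cs).2 rγ) hne, Subgroup.mem_bot] at k5
    exact hy1 k5
  have e4 : ⁅u, y⁆ = y' := two_of hF hφ rγ wγ hc hy' hc1 hy1'
  have e5 : u * y * u⁻¹ = y' * y := by
    rw [← e4, commutatorElement_def]; group
  have e6 : u⁻¹ * (y * y') * u = y := by
    rw [cy, ← e5]; group
  refine ⟨wS 1 * (up 1)⁻¹, ?_⟩
  rw [map_mul, map_inv, ← hu', ← hn']
  have e7 : n * u⁻¹ * (y * y') * (n * u⁻¹)⁻¹ = n * (u⁻¹ * (y * y') * u) * n⁻¹ := by group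
  rw [e7, e6]
  exact k1

/-! ### Root elements -/

theorem card_U : Nat.card (RGD.Sup (X φ) (RGD.Pos cs RGDTwE6.isCartan)) = 2 ^ 36 := by
  have h1 : RGD.Pos cs RGDTwE6.isCartan = ((prt.toFinset : Finset (Fin 4 → ℤ)) : Set (Fin 4 → ℤ)) := by
    ext x
    rw [Finset.mem_coe, List.mem_toFinset]
    exact mem_prt.symm
  rw [h1, card_Sup hF hφ (fun x hx => List.mem_toFinset.1 hx) (by rw [← h1]; exact closed_pos)]
  have h2 : ∏ x ∈ prt.toFinset, wgt x = 2 ^ 36 := by decide +kernel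
  exact h2

theorem sq_of {x : Fin 4 → ℤ} (hx : x ∈ rts) (hw : wgt x = 2) {a : KK F} (ha : a ∈ X φ x) : a * a = 1 := by
  have h1 := card_X hF hφ ((mem_rts cs).2 hx)
  rw [hw] at h1
  have h2 : (⟨a, ha⟩ : X φ x) ^ Nat.card (X φ x) = 1 := pow_card_eq_one'
  rw [h1, pow_two] at h2
  exact congrArg Subtype.val h2

/-- the unipotent subgroup centralises `X_θ` -/
theorem U_le_cent {t : KK F} (ht : t ∈ X φ th) :
    RGD.Sup (X φ) (RGD.Pos cs RGDTwE6.isCartan) ≤ centralizer ({t} : Set (KK F)) := by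
  refine RGD.Sup_le fun x hx => ?_
  have hx' := mem_prt.2 hx
  intro a ha
  rw [Subgroup.mem_centralizer_singleton_iff]
  exact comm_long hF hφ (prt_a x hx').1 (prt_a _ th_rts.1).1 th_rts.2.2 (tab_th x hx') ha ht

/-- **conjugates of elements of `X_θ` are root elements** -/
theorem re_of {x z : KK F} (h : x * z * x⁻¹ ∈ X φ th) (h1 : z ≠ 1) : RE z := by
  have := finite_WF
  have hfin : Finite (KK F) := by
    have : Finite (Matrix chevE6.Idx chevE6.Idx F) := inferInstance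
    have : Finite (GL chevE6.Idx F) := inferInstance
    infer_instance
  refine ⟨h1, ?_, ?_⟩
  · have h2 := sq_of hF hφ (prt_a _ th_rts.1).1 th_rts.2.1 h
    calc z * z = x⁻¹ * ((x * z * x⁻¹) * (x * z * x⁻¹)) * x := by group
      _ = 1 := by rw [h2]; group
  · have h2 : (RGD.Sup (X φ) (RGD.Pos cs RGDTwE6.isCartan)).map (MulAut.conj x⁻¹).toMonoidHom ≤
        centralizer ({z} : Set (KK F)) := by
      rintro _ ⟨u, hu, rfl⟩
      have h3 := Subgroup.mem_centralizer_singleton_iff.1 (U_le_cent hF hφ h hu)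
      rw [Subgroup.mem_centralizer_singleton_iff]
      change x⁻¹ * u * x⁻¹⁻¹ * z = z * (x⁻¹ * u * x⁻¹⁻¹)
      calc x⁻¹ * u * x⁻¹⁻¹ * z = x⁻¹ * (u * (x * z * x⁻¹)) * x := by group
        _ = x⁻¹ * ((x * z * x⁻¹) * u) * x := by rw [h3]
        _ = z * (x⁻¹ * u * x⁻¹⁻¹) := by group
    have h3 : Nat.card ((RGD.Sup (X φ) (RGD.Pos cs RGDTwE6.isCartan)).map (MulAut.conj x⁻¹).toMonoidHom) = 2 ^ 36 := by
      rw [← card_U hF hφ]
      exact (Nat.card_congr ((RGD.Sup (X φ) (RGD.Pos cs RGDTwE6.isCartan)).equivMapOfInjective _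
        (MulAut.conj x⁻¹).injective).toEquiv).symm
    rw [← h3]
    exact Subgroup.card_dvd_of_le h2

/-! ### The group `⟨X_1242, X_1342, X_2342⟩` -/

/-- **The nontrivial elements of `⟨X_1242, X_1342, X_2342⟩` are conjugate to root elements.** -/
theorem exists_conj_last {z : KK F} (hz : z ∈ Nm φ 19) : ∃ x, x * z * x⁻¹ ∈ X φ th := by
  have := finite_WF
  have R := rgdK hF hφ
  obtain ⟨t1, t2, t3, t4, t5⟩ := tab19
  have hS : ∀ m, ((Sm m : Finset (Fin 4 → ℤ)) : Set (Fin 4 → ℤ)) ⊆ RGD.Pos cs RGDTwE6.isCartan := fun m x hx =>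
    mem_prt.1 (mem_Sm.1 (Finset.mem_coe.1 hx)).1
  obtain ⟨x1, hx1, w, hw, rfl⟩ := (mem_peel R (hS 19) (closed_Sm 19) (Finset.mem_coe.2 t4)).1 hz
  rw [← Finset.coe_erase, t1] at hw
  obtain ⟨x2, hx2, x3, hx3, rfl⟩ := (mem_peel R (hS 20) (closed_Sm 20) (Finset.mem_coe.2 t5)).1 hw
  rw [← Finset.coe_erase, t2, t3, Finset.coe_singleton] at hx3
  have hx3' : x3 ∈ X φ th := RGD.Sup_le (S := ({th} : Set (Fin 4 → ℤ))) (fun z hz => by
    rw [Set.mem_singleton_iff.1 hz]) hx3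
  obtain ⟨r, hr⟩ := conj_pair hF hφ pt0 hx2 hx3'
  obtain ⟨-, hγ, -, -, -, -, h2, -⟩ := pt0
  -- the rank one group of the node `0` centralises `X_1242`
  have hcen : ∀ r, Pn hF hφ 0 r * x1 = x1 * Pn hF hφ 0 r := by
    intro r
    have h3 : (Pn hF hφ 0).range ≤ centralizer ({x1} : Set (KK F)) := by
      rw [Cfsg.Agent.UGT.U2.FOne.TwESix.range_P hφ (hqq_of hF) 0]
      refine sup_le (fun a ha => ?_) (fun a ha => ?_)
      · obtain ⟨h4, h5⟩ := tab0 (sr 0) (by simp)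
        exact Subgroup.mem_centralizer_singleton_iff.2 (comm_long hF hφ h4 tab0'.1 tab0'.2 h5 ha hx1)
      · obtain ⟨h4, h5⟩ := tab0 (-sr 0) (by simp)
        exact Subgroup.mem_centralizer_singleton_iff.2 (comm_long hF hφ h4 tab0'.1 tab0'.2 h5 ha hx1)
    exact Subgroup.mem_centralizer_singleton_iff.1 (h3 ⟨r, rfl⟩)
  -- `x₂ x₃` to `X_1342`
  have h5 := conj_refl hF hφ 0 (prt_a _ hγ).1 h2 hr
  obtain ⟨a, ha⟩ : ∃ a, a = Pn hF hφ 0 (wS 1 * r) := ⟨_, rfl⟩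
  have h6 : a * (x2 * x3) * a⁻¹ ∈ X φ ![1, 3, 4, 2] := by
    rw [ha, map_mul]
    have e : Pn hF hφ 0 (wS 1) * Pn hF hφ 0 r * (x2 * x3) * (Pn hF hφ 0 (wS 1) * Pn hF hφ 0 r)⁻¹ =
      Pn hF hφ 0 (wS 1) * (Pn hF hφ 0 r * (x2 * x3) * (Pn hF hφ 0 r)⁻¹) * (Pn hF hφ 0 (wS 1))⁻¹ := by group
    rw [e]; exact h5
  obtain ⟨s, hs⟩ := conj_pair hF hφ pt1 hx1 h6
  have h7 := conj_refl hF hφ 0 (prt_a _ pt0.1).1 pt0.2.2.2.2.2.1 hs
  refine ⟨Pn hF hφ 0 (wS 1) * Pn hF hφ 1 s * a, ?_⟩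
  have e : Pn hF hφ 0 (wS 1) * Pn hF hφ 1 s * a * (x1 * (x2 * x3)) * (Pn hF hφ 0 (wS 1) * Pn hF hφ 1 s * a)⁻¹ =
      Pn hF hφ 0 (wS 1) * (Pn hF hφ 1 s * (x1 * (a * (x2 * x3) * a⁻¹)) * (Pn hF hφ 1 s)⁻¹) *
        (Pn hF hφ 0 (wS 1))⁻¹ := by
    have h8 : a * x1 = x1 * a := by rw [ha]; exact hcen _
    calc Pn hF hφ 0 (wS 1) * Pn hF hφ 1 s * a * (x1 * (x2 * x3)) * (Pn hF hφ 0 (wS 1) * Pn hF hφ 1 s * a)⁻¹ =
        Pn hF hφ 0 (wS 1) * Pn hF hφ 1 s * (a * x1) * (x2 * x3) * a⁻¹ * (Pn hF hφ 1 s)⁻¹ *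
          (Pn hF hφ 0 (wS 1))⁻¹ := by group
      _ = _ := by rw [h8]; group
  rw [e]
  exact h7

/-- the nontrivial elements of `⟨X_1242, X_1342, X_2342⟩` are root elements -/
theorem re_last {z : KK F} (hz : z ∈ Nm φ 19) (h1 : z ≠ 1) : RE z := by
  obtain ⟨x, hx⟩ := exists_conj_last hF hφ hz
  exact re_of hF hφ hx h1

end

end Cfsg.Agent.H150.QF
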