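import Cfsg.Agent.H150.QF.Tab
import Cfsg.Agent.H150.QF.Fix

/-!
# Strings of roots under the node `3` in `²E₆(2)` (S2491, row F4, E5; helper150)

* `ff`, `Sm`, `Nm` : the filtration of the unipotent radical of `P_{0,1,3}`;
* `step` : an element of order five of the rank one group of the node `3` has no fixed points on a string of order 16;
* `mem_last` : its fixed points in `V_3` are in `⟨X_1242, X_1342, X_2342⟩`.
-/

set_option autoImplicit false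
set_option linter.unusedSectionVars false
set_option linter.style.haveILetI false

namespace Cfsg.Agent.H150.QF

open CoxeterSystem Cfsg.Agent.ChevalleyStructure.CoxeterGeom Cfsg.Agent.Tits.Roots Cfsg.Agent.Tits.Core
  Cfsg.Agent.Nodes Cfsg.Agent.Nodes.Reps Cfsg.Agent.Nodes.BNOf Cfsg.Agent.Nodes.RGDLib Cfsg.Agent.Nodes.Bruhat
  Cfsg.Agent.Nodes.OppDec Cfsg.Agent.Nodes.LeviDec Cfsg.Agent.Nodes.StabComb Cfsg.Agent.Nodes.Unique
open Cfsg.Lie Subgroup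
open Cfsg.Agent.H231.QF
open Cfsg.Agent.KFacts.TwESix.Comb (bf rts mem_rts bf_rep norm exists_rep_long exists_rep_short)
open Cfsg.Agent.Nodes.RGDFoldSL (Fx mem_Fx wS)
open Cfsg.Agent.Nodes.RGDTwNode.E6 (rest)
open Cfsg.Agent.ChevalleyStructure.SL2Hom (up lo)

universe u

/-- the filtration -/
def ff (x : Fin 4 → ℤ) : ℤ := x 0 + x 1 + 4 * x 2

/-- the roots of level at least `m` -/
def Sm (m : ℤ) : Finset (Fin 4 → ℤ) := (prt.filter fun x => m ≤ ff x).toFinset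

theorem mem_Sm {m : ℤ} {x : Fin 4 → ℤ} : x ∈ Sm m ↔ x ∈ prt ∧ m ≤ ff x := by
  rw [Sm, List.mem_toFinset, List.mem_filter, decide_eq_true_iff]

set_option maxRecDepth 20000 in
theorem tab1 : ∀ x ∈ prt, ∀ y ∈ prt, ∀ z ∈ prt, Qb x y z →
    (ff x ≤ ff z ∨ ff y ≤ ff z) ∧ (ff x < ff y → ff x < ff z) ∧ (ff y < ff x → ff y < ff z) := by decide +kernel

set_option maxRecDepth 20000 in
theorem tab3 : ∀ x ∈ [![0, 0, 0, 1], ![0, 0, 0, -1]], ∀ y ∈ prt, 4 ≤ ff y →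
    (∀ z ∈ rts, Qb x y z → z ∈ prt ∧ ff y ≤ ff z) ∧ x ≠ -y := by decide +kernel

/-- the levels -/
def lv : List (ℤ × ℤ × (Fin 4 → ℤ) × (Fin 4 → ℤ)) :=
  [(4, 5, ![0, 0, 1, 0], ![0, 0, 1, 1]), (5, 6, ![0, 1, 1, 0], ![0, 1, 1, 1]), (6, 9, ![1, 1, 1, 0], ![1, 1, 1, 1]),
   (9, 10, ![0, 1, 2, 0], ![0, 1, 2, 2]), (10, 11, ![1, 1, 2, 0], ![1, 1, 2, 2]),
   (11, 15, ![1, 2, 2, 0], ![1, 2, 2, 2]), (15, 19, ![1, 2, 3, 1], ![1, 2, 3, 2])]

set_option maxRecDepth 20000 in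
theorem tabl : ∀ l ∈ lv, l.1 < l.2.1 ∧ 4 ≤ l.1 ∧ l.2.2.1 ∈ prt ∧ l.2.2.2 ∈ prt ∧ ff l.2.2.1 = l.1 ∧ ff l.2.2.2 = l.1 ∧
    l.2.2.1 ≠ l.2.2.2 ∧ Cfsg.Agent.Nodes.RGDFold.refl RGDTwE6.A 3 l.2.2.1 = l.2.2.2 ∧
    (∀ x ∈ prt, l.1 < ff x → l.2.1 ≤ ff x) ∧
    (∏ x ∈ Sm l.1, wgt x = 16 * ∏ x ∈ Sm l.2.1, wgt x) := by decide +kernel

theorem closed_Sm (m : ℤ) : Closed cs RGDTwE6.isCartan (Sm m : Set (Fin 4 → ℤ)) := by
  intro x hx y hy z hz
  rw [Finset.mem_coe, mem_Sm] at hx hy ⊢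
  have hzp : z ∈ prt := mem_prt.2 ⟨hz.1, RGD.nonneg_of_btwn (mem_prt.1 hx.1).2 (mem_prt.1 hy.1).2 hz⟩
  refine ⟨hzp, ?_⟩
  rcases (tab1 x hx.1 y hy.1 z hzp (btwn_Qb hz)).1 with h | h
  · exact hx.2.trans h
  · exact hy.2.trans h

/-- a level with one root of the previous level -/
theorem closed_ins {m m' : ℤ} (hm : ∀ x ∈ prt, m < ff x → m' ≤ ff x) (hmm : m < m') {c : Fin 4 → ℤ} (hc : c ∈ prt)
    (hcm : ff c = m) : Closed cs RGDTwE6.isCartan (insert c (Sm m' : Set (Fin 4 → ℤ))) := by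
  intro x hx y hy z hz
  have hS : ∀ w ∈ insert c (Sm m' : Set (Fin 4 → ℤ)), w ∈ prt ∧ (w = c ∨ m' ≤ ff w) := by
    intro w hw
    rcases Set.mem_insert_iff.1 hw with h | h
    · exact ⟨h ▸ hc, Or.inl h⟩
    · obtain ⟨h1, h2⟩ := mem_Sm.1 (Finset.mem_coe.1 h)
      exact ⟨h1, Or.inr h2⟩
  obtain ⟨hx1, hx2⟩ := hS x hx
  obtain ⟨hy1, hy2⟩ := hS y hy
  have hzp : z ∈ prt := mem_prt.2 ⟨hz.1, RGD.nonneg_of_btwn (mem_prt.1 hx1).2 (mem_prt.1 hy1).2 hz⟩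
  have ht := tab1 x hx1 y hy1 z hzp (btwn_Qb hz)
  have key : m < ff z → z ∈ insert c (Sm m' : Set (Fin 4 → ℤ)) := fun h =>
    Set.mem_insert_of_mem _ (Finset.mem_coe.2 (mem_Sm.2 ⟨hzp, hm z hzp h⟩))
  rcases hx2 with h1 | h1 <;> rcases hy2 with h2 | h2
  · subst h1
    subst h2
    rw [btwn_self (mem_prt.1 hc).1 hz]
    exact Set.mem_insert _ _
  · subst h1
    exact key (by
      have := ht.2.1 (by omega)
      omega)
  · subst h2
    exact key (by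
      have := ht.2.2 (by omega)
      omega)
  · exact key (by
      rcases ht.1 with h | h <;> omega)

section

variable {F : Type u} [Field F] [Fintype F] {φ : F →+* F} (hF : Fintype.card F = 4) (hφ : ∀ t, φ t = t ^ 2)

/-- the subgroups of the filtration -/
noncomputable abbrev Nm (φ : F →+* F) (m : ℤ) : Subgroup (KK F) := RGD.Sup (X φ) (Sm m : Set (Fin 4 → ℤ))

/-- the homomorphism of the node `3` -/
noncomputable abbrev P3 : Matrix.SpecialLinearGroup (Fin 2) (Fx φ ((rest 3).length + 1)) →* KK F :=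
  Cfsg.Agent.UGT.U2.FOne.TwESix.P hφ (hqq_of hF) 3

include hF hφ

theorem range_le_normalizer {m : ℤ} (hm : 4 ≤ m) : (P3 hF hφ).range ≤ normalizer (Nm φ m : Set (KK F)) := by
  have := finite_WF
  have R := rgdK hF hφ
  rw [Cfsg.Agent.UGT.U2.FOne.TwESix.range_P hφ (hqq_of hF) 3]
  have e1 : (sr 3 : Fin 4 → ℤ) = ![0, 0, 0, 1] := by decide +kernel
  have e2 : (-sr 3 : Fin 4 → ℤ) = ![0, 0, 0, -1] := by decide +kernel
  have key : ∀ x : Fin 4 → ℤ, IsRoot cs RGDTwE6.isCartan x → x ∈ [![0, 0, 0, 1], ![0, 0, 0, -1]] →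
      X φ x ≤ normalizer (Nm φ m : Set (KK F)) := by
    intro x hx hxl
    refine R.le_normalizer hx fun y hy => ?_
    obtain ⟨hy1, hy2⟩ := mem_Sm.1 (Finset.mem_coe.1 hy)
    obtain ⟨h1, h2⟩ := tab3 x hxl y hy1 (hm.trans hy2)
    refine ⟨(mem_prt.1 hy1).1, Or.inr ⟨h2, fun z hz => ?_⟩⟩
    obtain ⟨h3, h4⟩ := h1 z ((mem_rts cs).1 hz.1) (btwn_Qb hz)
    exact Finset.mem_coe.2 (mem_Sm.2 ⟨h3, hy2.trans h4⟩)
  refine sup_le (key _ (isRoot_sr cs _ 3) (by rw [e1]; simp)) (key _ (isRoot_sr cs _ 3).neg (by rw [e2]; simp))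

theorem Nm_le_normalizer {m m' : ℤ} (hm : ∀ x ∈ prt, m < ff x → m' ≤ ff x) (hmm : m < m') :
    Nm φ m ≤ normalizer (Nm φ m' : Set (KK F)) := by
  have R := rgdK hF hφ
  refine RGD.Sup_le fun x hx => ?_
  obtain ⟨hx1, hx2⟩ := mem_Sm.1 (Finset.mem_coe.1 hx)
  refine R.le_normalizer (mem_prt.1 hx1).1 fun y hy => ?_
  obtain ⟨hy1, hy2⟩ := mem_Sm.1 (Finset.mem_coe.1 hy)
  refine ⟨(mem_prt.1 hy1).1, Or.inr ⟨?_, fun z hz => ?_⟩⟩
  · rintro rfl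
    have h1 : (y : Fin 4 → ℤ) = 0 := by
      have h2 := (mem_prt.1 hy1).2
      have h3 := (mem_prt.1 hx1).2
      refine le_antisymm ?_ h2
      have := neg_nonneg.1 h3
      exact this
    exact (mem_prt.1 hy1).1.ne_zero h1
  · have hzp : z ∈ prt := mem_prt.2 ⟨hz.1, RGD.nonneg_of_btwn (mem_prt.1 hx1).2 (mem_prt.1 hy1).2 hz⟩
    have ht := tab1 x hx1 y hy1 z hzp (btwn_Qb hz)
    refine Finset.mem_coe.2 (mem_Sm.2 ⟨hzp, ?_⟩)
    by_cases h : m < ff x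
    · have h1 := hm x hx1 h
      rcases ht.1 with h2 | h2 <;> omega
    · exact hm z hzp (by
        have := ht.2.1 (by omega)
        omega)

/-- **One string.** -/
theorem step {m m' : ℤ} {b c : Fin 4 → ℤ} (hl : (m, m', b, c) ∈ lv)
    {s : Matrix.SpecialLinearGroup (Fin 2) (Fx φ ((rest 3).length + 1))} (hs : s * s ≠ 1) (h5 : P3 hF hφ s ^ 5 = 1)
    {z : KK F} (hz : z ∈ Nm φ m) (hzs : P3 hF hφ s * z = z * P3 hF hφ s) : z ∈ Nm φ m' := by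
  have := finite_WF
  have R := rgdK hF hφ
  obtain ⟨h1, h2, h3, h4, h6, h7, h8, h9, h10, h11⟩ := tabl _ hl
  simp only at h1 h2 h3 h4 h6 h7 h8 h9 h10 h11
  by_contra hzB
  have hAr := range_le_normalizer hF hφ h2
  have hBr := range_le_normalizer hF hφ (h2.trans h1.le)
  have hBA : Nm φ m' ≤ Nm φ m := RGD.Sup_mono fun x hx => by
    obtain ⟨hx1, hx2⟩ := mem_Sm.1 (Finset.mem_coe.1 hx)
    exact Finset.mem_coe.2 (mem_Sm.2 ⟨hx1, h1.le.trans hx2⟩)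
  have hcard : Nat.card (Nm φ m) = 16 * Nat.card (Nm φ m') := by
    rw [card_Sup hF hφ (fun x hx => (mem_Sm.1 hx).1) (closed_Sm m), card_Sup hF hφ (fun x hx => (mem_Sm.1 hx).1) (closed_Sm m'),
      h11]
  have hd : Fix.Ct (Nm φ m) (Nm φ m') (P3 hF hφ s) := by
    refine Fix.sect_five hBA (Nm_le_normalizer hF hφ h10 h1) hcard (hAr ⟨s, rfl⟩) (hBr ⟨s, rfl⟩) h5 hz hzB ?_
    have e : P3 hF hφ s * z * (P3 hF hφ s)⁻¹ * z⁻¹ = 1 := by rw [hzs]; group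
    rw [e]
    exact one_mem _
  have hk2 : 4 ≤ Nat.card (Fx φ ((rest 3).length + 1)) := by rw [card_F3 hF hφ]
  have hn := Fix.sl_all hk2 (P3 hF hφ) hAr hBr hs hd (wS 1)
  have hnn : P3 hF hφ (wS 1) = RGDTwE6.nn hφ 3 := Cfsg.Agent.UGT.U2.FOne.TwESix.P_wS hφ (hqq_of hF) 3
  -- an element of `X b`
  have hb := (mem_prt.1 h3).1
  have hc := (mem_prt.1 h4).1
  have hne : (X φ b : Subgroup (KK F)) ≠ ⊥ := by
    intro h
    have h12 := card_X hF hφ hb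
    rw [h, Subgroup.card_bot] at h12
    unfold wgt at h12
    split_ifs at h12 <;> omega
  obtain ⟨⟨a, ha⟩, ha0⟩ := (X φ b).ne_bot_iff_exists_ne_one.1 hne
  have ha1 : a ≠ 1 := fun h => ha0 (Subtype.ext h)
  have hrep : rep cs RGDTwE6.isCartan (cs.simple 3) b = c := by
    rw [Cfsg.Agent.KFacts.TwESix.Comb.rep_simple_refl]
    exact h9
  have hna : P3 hF hφ (wS 1) * a * (P3 hF hφ (wS 1))⁻¹ ∈ X φ c := by
    rw [hnn, ← hrep]
    exact R.conj_mem (rp_simple cs R.nsys 3) hb ha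
  have haA : a ∈ Nm φ m := RGD.le_Sup (Finset.mem_coe.2 (mem_Sm.2 ⟨h3, h6.ge⟩)) ha
  have h12 := hn a haA
  have h13 : a ∈ RGD.Sup (X φ) (insert c (Sm m' : Set (Fin 4 → ℤ))) := by
    have e : a = (P3 hF hφ (wS 1) * a * (P3 hF hφ (wS 1))⁻¹ * a⁻¹)⁻¹ *
        (P3 hF hφ (wS 1) * a * (P3 hF hφ (wS 1))⁻¹) := by group
    rw [e]
    refine mul_mem (inv_mem ?_) (RGD.le_Sup (Set.mem_insert _ _) hna)
    exact RGD.Sup_mono (Set.subset_insert _ _) h12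
  have h14 : a ∈ RGD.Sup (X φ) {b} := RGD.le_Sup (Set.mem_singleton b) ha
  have h15 := inf_eq R (S := {b}) (S' := insert c (Sm m' : Set (Fin 4 → ℤ)))
    (fun x hx => by rw [Set.mem_singleton_iff.1 hx]; exact mem_prt.1 h3)
    (fun x hx => by
      rcases Set.mem_insert_iff.1 hx with h | h
      · rw [h]; exact mem_prt.1 h4
      · exact mem_prt.1 (mem_Sm.1 (Finset.mem_coe.1 h)).1)
    (fun x hx y hy w hw => by
      rw [Set.mem_singleton_iff] at hx hy ⊢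
      subst hx
      subst hy
      exact btwn_self hb hw)
    (closed_ins h10 h1 h4 h7)
  have h16 : ({b} : Set (Fin 4 → ℤ)) ∩ insert c (Sm m' : Set (Fin 4 → ℤ)) = ∅ := by
    rw [Set.eq_empty_iff_forall_notMem]
    rintro x ⟨hx, hx'⟩
    rw [Set.mem_singleton_iff] at hx
    subst hx
    rcases Set.mem_insert_iff.1 hx' with h | h
    · exact h8 h
    · have := (mem_Sm.1 (Finset.mem_coe.1 h)).2
      omega
  rw [h16, Sup_empty] at h15
  have h17 : a ∈ (⊥ : Subgroup (KK F)) := by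
    rw [← h15]
    exact ⟨h14, h13⟩
  exact ha1 (Subgroup.mem_bot.1 h17)

/-- **The fixed points in `V_3`.** -/
theorem mem_last {s : Matrix.SpecialLinearGroup (Fin 2) (Fx φ ((rest 3).length + 1))} (hs : s * s ≠ 1)
    (h5 : P3 hF hφ s ^ 5 = 1) {z : KK F} (hz : z ∈ V φ j3) (hzs : P3 hF hφ s * z = z * P3 hF hφ s) : z ∈ Nm φ 19 := by
  have h4 : z ∈ Nm φ 4 := by
    refine RGD.Sup_mono (X := X φ) (fun x hx => ?_) hz
    obtain ⟨h1, h2, k, hk, h3⟩ := hx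
    have hk2 : k = 2 := by
      by_contra h
      exact hk h
    subst hk2
    refine Finset.mem_coe.2 (mem_Sm.2 ⟨mem_prt.2 ⟨h1, h2⟩, ?_⟩)
    have h5 : 0 ≤ x 0 := h2 0
    have h6 : 0 ≤ x 1 := h2 1
    change 4 ≤ x 0 + x 1 + 4 * x 2
    have h7 : 1 ≤ x 2 := h3
    linarith
  have h5' := step hF hφ (m := 4) (m' := 5) (b := ![0, 0, 1, 0]) (c := ![0, 0, 1, 1])
    (by simp [lv]) hs h5 h4 hzs
  have h6 := step hF hφ (m := 5) (m' := 6) (b := ![0, 1, 1, 0]) (c := ![0, 1, 1, 1])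
    (by simp [lv]) hs h5 h5' hzs
  have h7 := step hF hφ (m := 6) (m' := 9) (b := ![1, 1, 1, 0]) (c := ![1, 1, 1, 1])
    (by simp [lv]) hs h5 h6 hzs
  have h8 := step hF hφ (m := 9) (m' := 10) (b := ![0, 1, 2, 0]) (c := ![0, 1, 2, 2])
    (by simp [lv]) hs h5 h7 hzs
  have h9 := step hF hφ (m := 10) (m' := 11) (b := ![1, 1, 2, 0]) (c := ![1, 1, 2, 2])
    (by simp [lv]) hs h5 h8 hzs
  have h10 := step hF hφ (m := 11) (m' := 15) (b := ![1, 2, 2, 0]) (c := ![1, 2, 2, 2])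
    (by simp [lv]) hs h5 h9 hzs
  exact step hF hφ (m := 15) (m' := 19) (b := ![1, 2, 3, 1]) (c := ![1, 2, 3, 2])
    (by simp [lv]) hs h5 h10 hzs

end

end Cfsg.Agent.H150.QF
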